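import Mathlib
import Cfsg.Agent.Lib.Helper45.S9Stmt

set_option autoImplicit false

/-! Piece [GRAM] of S3590: the Gram matrix of the polar form of `quadFormMinus 3 F a b`
in characteristic 2. -/

namespace Cfsg.Agent.Lib.Helper78.S9GRAM

open Matrix
open Cfsg.Agent.Lib.Helper45.S9Stmt

universe u

variable {F : Type u} [Field F]

/-- the Gram matrix -/
def gram (a : F) : Matrix ((Fin 3 ⊕ Fin 3) ⊕ Fin 2) ((Fin 3 ⊕ Fin 3) ⊕ Fin 2) F :=
  Matrix.fromBlocks (Matrix.fromBlocks 0 1 1 0) 0 0 !![0, a; a, 0]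

/-- its inverse -/
def gramInv (a : F) : Matrix ((Fin 3 ⊕ Fin 3) ⊕ Fin 2) ((Fin 3 ⊕ Fin 3) ⊕ Fin 2) F :=
  Matrix.fromBlocks (Matrix.fromBlocks 0 1 1 0) 0 0 !![0, a⁻¹; a⁻¹, 0]

theorem gram_mul_inv (a : F) (ha : a ≠ 0) : gram a * gramInv a = 1 := by
  unfold gram gramInv
  rw [Matrix.fromBlocks_multiply, Matrix.fromBlocks_multiply]
  have h2 : (!![0, a; a, 0] : Matrix (Fin 2) (Fin 2) F) * !![0, a⁻¹; a⁻¹, 0] = 1 := by
    ext i j
    fin_cases i <;> fin_cases j <;> simp [Matrix.mul_apply, Fin.sum_univ_two, ha]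
  simp only [Matrix.zero_mul, Matrix.mul_zero, Matrix.one_mul, Matrix.mul_one, add_zero, zero_add,
    h2, Matrix.fromBlocks_one]

theorem gram_det (a : F) (ha : a ≠ 0) : IsUnit (gram a).det :=
  Matrix.isUnit_det_of_right_inverse (gram_mul_inv a ha)

theorem polar_eq [CharP F 2] (a b : F) (u v : (Fin 3 ⊕ Fin 3) ⊕ Fin 2 → F) :
    Cfsg.quadFormMinus 3 F a b (u + v) - Cfsg.quadFormMinus 3 F a b u -
      Cfsg.quadFormMinus 3 F a b v = u ⬝ᵥ (gram a) *ᵥ v := by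
  have h2 : (2 : F) = 0 := CharTwo.two_eq_zero
  unfold gram
  simp only [Cfsg.quadFormMinus, Fin.sum_univ_three, Fin.sum_univ_two, Pi.add_apply, dotProduct,
    Matrix.mulVec, Fintype.sum_sum_type, Matrix.fromBlocks_apply₁₁, Matrix.fromBlocks_apply₁₂,
    Matrix.fromBlocks_apply₂₁, Matrix.fromBlocks_apply₂₂, Matrix.zero_apply, Matrix.one_apply,
    Matrix.of_apply, Matrix.cons_val', Matrix.cons_val_zero, Matrix.cons_val_one,
    Matrix.cons_val_fin_one]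
  simp only [show ((0 : Fin 3) = 1) = False from by decide, show ((0 : Fin 3) = 2) = False from by decide,
    show ((1 : Fin 3) = 0) = False from by decide, show ((1 : Fin 3) = 2) = False from by decide,
    show ((2 : Fin 3) = 0) = False from by decide, show ((2 : Fin 3) = 1) = False from by decide,
    if_false, if_true]
  linear_combination (u (Sum.inr 0) * v (Sum.inr 0) + b * u (Sum.inr 1) * v (Sum.inr 1)) * h2

theorem gram_of_pres (J A : Matrix ((Fin 3 ⊕ Fin 3) ⊕ Fin 2) ((Fin 3 ⊕ Fin 3) ⊕ Fin 2) F)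
    (h : ∀ x y : (Fin 3 ⊕ Fin 3) ⊕ Fin 2 → F, (A *ᵥ x) ⬝ᵥ J *ᵥ (A *ᵥ y) = x ⬝ᵥ J *ᵥ y) :
    Aᵀ * J * A = J := by
  ext i j
  have h1 := h (Pi.single i 1) (Pi.single j 1)
  have h3 : (A *ᵥ Pi.single i 1) ⬝ᵥ J *ᵥ (A *ᵥ Pi.single j 1) =
      Pi.single i 1 ⬝ᵥ (Aᵀ * J * A) *ᵥ Pi.single j 1 := by
    rw [Matrix.mulVec_mulVec, Matrix.dotProduct_mulVec, Matrix.vecMul_mulVec,
      ← Matrix.dotProduct_mulVec, Matrix.mul_assoc]
  rw [h3] at h1
  simpa using h1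

theorem main : GRAM.{u} := by
  intro F _ _ a b ha
  refine ⟨gram a, gram_det a ha, ?_⟩
  intro g
  apply gram_of_pres
  intro x y
  have hQ : ∀ w, Cfsg.quadFormMinus 3 F a b
      (((g : GL ((Fin 3 ⊕ Fin 3) ⊕ Fin 2) F) : Matrix _ _ F) *ᵥ w) =
      Cfsg.quadFormMinus 3 F a b w := fun w => g.2 w w
  rw [← polar_eq a b, ← polar_eq a b, ← Matrix.mulVec_add, hQ, hQ, hQ]

end Cfsg.Agent.Lib.Helper78.S9GRAM
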