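import Mathlib
import Cfsg.Agent.Lib.Helper16.SNStmt

/-!
Piece [KTRIV] of S3641 (Sylow numbers `{18, 136, 153}`): the action on the Sylow 17-subgroups is
faithful.
-/

set_option autoImplicit false

namespace Cfsg.Agent.Lib.Helper78.SNKTRIV

open Cfsg.Agent.Lib.Helper16.SNStmt

universe u

/-- A nontrivial normal subgroup of a finite `p`-group meets the centre. -/
theorem normal_meets_center {p : ℕ} [Fact p.Prime] {P : Type*} [Group P] [Finite P]
    (hP : IsPGroup p P) (N : Subgroup P) [N.Normal] (hN : N ≠ ⊥) :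
    ∃ z ∈ N, z ≠ 1 ∧ z ∈ Subgroup.center P := by
  have hNp : IsPGroup p N := hP.to_subgroup N
  have hnt : Nontrivial ↥N := (Subgroup.nontrivial_iff_ne_bot N).mpr hN
  have dvd : p ∣ Nat.card ↥N := by
    obtain ⟨n, hn0, hn⟩ := hNp.nontrivial_iff_card.mp hnt
    exact hn.symm ▸ dvd_pow_self _ (ne_of_gt hn0)
  have h1 : (1 : ↥N) ∈ MulAction.fixedPoints (ConjAct P) ↥N := by
    intro g
    exact smul_one g
  obtain ⟨b, hb, hne⟩ :=
    (hP.of_equiv ConjAct.toConjAct).exists_fixed_point_of_prime_dvd_card_of_fixed_point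
      (α := ↥N) dvd h1
  refine ⟨(b : P), b.2, ?_, ?_⟩
  · intro h
    apply hne
    exact (Subtype.ext h).symm
  · rw [Subgroup.mem_center_iff]
    intro g
    have h2 := hb (ConjAct.toConjAct g)
    have h3 : ((ConjAct.toConjAct g • b : ↥N) : P) = g * (b : P) * g⁻¹ := by
      rw [ConjAct.Subgroup.val_conj_smul, ConjAct.toConjAct_smul]
    rw [h2] at h3
    calc g * (b : P) = g * (b : P) * g⁻¹ * g := by group
      _ = (b : P) * g := by rw [← h3]

variable {G : Type u} [Group G]

/-- An element of `p`-power order normalizing a Sylow `p`-subgroup lies in it. -/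
theorem mem_sylow_of_mem_normalizer {p : ℕ} [Fact p.Prime] (R : Sylow p G) (y : G)
    (hy : IsPGroup p (Subgroup.zpowers y))
    (hn : y ∈ Subgroup.normalizer ((R : Subgroup G) : Set G)) : y ∈ (R : Subgroup G) := by
  have h1 : Subgroup.zpowers y ≤ Subgroup.normalizer ((R : Subgroup G) : Set G) :=
    (Subgroup.zpowers_le).mpr hn
  have h2 : R ∈ MulAction.fixedPoints (Subgroup.zpowers y) (Sylow p G) :=
    (Subgroup.sylow_mem_fixedPoints_iff _).mpr h1
  exact (hy.sylow_mem_fixedPoints_iff.mp h2) (Subgroup.mem_zpowers y)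

theorem isPGroup_zpowers_of_orderOf {p : ℕ} [Fact p.Prime] (y : G) (n : ℕ)
    (h : orderOf y = p ^ n) : IsPGroup p (Subgroup.zpowers y) := by
  apply IsPGroup.of_card (n := n)
  rw [Nat.card_zpowers, h]

/-- The key step: a normal subgroup `K` normalizing every Sylow subgroup of a centreless group has
order prime to `r`. -/
theorem not_dvd_card [Finite G] (K : Subgroup G) [K.Normal] (hZ : Subgroup.center G = ⊥)
    (hall : ∀ (s : ℕ) [Fact s.Prime], ∀ S : Sylow s G,
      K ≤ Subgroup.normalizer ((S : Subgroup G) : Set G))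
    (r : ℕ) [hr : Fact r.Prime] : ¬ r ∣ Nat.card K := by
  intro hdvd
  obtain ⟨k, hk⟩ := exists_prime_orderOf_dvd_card' (G := ↥K) r hdvd
  have hk1 : (k : G) ≠ 1 := by
    intro h
    have : k = 1 := Subtype.ext h
    rw [this, orderOf_one] at hk
    exact hr.out.ne_one hk.symm
  have hkord : orderOf (k : G) = r ^ 1 := by rw [Subgroup.orderOf_coe, hk, pow_one]
  obtain ⟨R⟩ : Nonempty (Sylow r G) := inferInstance
  -- every `r`-element of `K` lies in `R`
  have hstar : ∀ y ∈ K, IsPGroup r (Subgroup.zpowers y) → y ∈ (R : Subgroup G) := fun y hy hyp =>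
    mem_sylow_of_mem_normalizer R y hyp (hall r R hy)
  have hkR : (k : G) ∈ (R : Subgroup G) :=
    hstar _ k.2 (isPGroup_zpowers_of_orderOf _ 1 hkord)
  -- a central element of `R` inside `K`
  have hNne : K.subgroupOf (R : Subgroup G) ≠ ⊥ := by
    intro h
    have hmem : (⟨(k : G), hkR⟩ : ↥(R : Subgroup G)) ∈ K.subgroupOf (R : Subgroup G) :=
      Subgroup.mem_subgroupOf.mpr k.2
    rw [h, Subgroup.mem_bot] at hmem
    exact hk1 (congrArg Subtype.val hmem)
  obtain ⟨z, hzN, hz1, hzc⟩ := normal_meets_center R.isPGroup' (K.subgroupOf (R : Subgroup G)) hNne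
  have hzK : (z : G) ∈ K := Subgroup.mem_subgroupOf.mp hzN
  have hz1' : (z : G) ≠ 1 := fun h => hz1 (Subtype.ext h)
  have hzp : IsPGroup r (Subgroup.zpowers (z : G)) := by
    obtain ⟨n, hn⟩ := (IsPGroup.iff_orderOf.mp R.isPGroup') z
    exact isPGroup_zpowers_of_orderOf _ n (by rw [Subgroup.orderOf_coe, hn])
  -- `z` is central in `G`
  have hcent : Subgroup.centralizer ({(z : G)} : Set G) = ⊤ := by
    rw [← Subgroup.index_eq_one, Nat.eq_one_iff_not_exists_prime_dvd]
    intro s hs hsdvd
    have : Fact s.Prime := ⟨hs⟩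
    -- a Sylow `s`-subgroup inside the centralizer
    have hex : ∃ S : Sylow s G, (S : Subgroup G) ≤ Subgroup.centralizer ({(z : G)} : Set G) := by
      by_cases hsr : s = r
      · subst hsr
        refine ⟨R, ?_⟩
        intro x hx
        rw [Subgroup.mem_centralizer_iff]
        intro y hy
        rw [Set.mem_singleton_iff] at hy
        subst hy
        have h := Subgroup.mem_center_iff.mp hzc ⟨x, hx⟩
        exact (congrArg Subtype.val h).symm
      · obtain ⟨S⟩ : Nonempty (Sylow s G) := inferInstance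
        refine ⟨S, ?_⟩
        intro x hx
        rw [Subgroup.mem_centralizer_iff]
        intro y hy
        rw [Set.mem_singleton_iff] at hy
        subst hy
        -- the commutator lies in `S ⊓ R`
        have hzn := hall s S hzK
        have hc1 : (z : G) * x * (z : G)⁻¹ * x⁻¹ ∈ (S : Subgroup G) := by
          have h1 : (z : G) * x * (z : G)⁻¹ ∈ (S : Subgroup G) :=
            (Subgroup.mem_normalizer_iff.mp hzn x).mp hx
          exact Subgroup.mul_mem _ h1 (Subgroup.inv_mem _ hx)
        have hconjK : x * (z : G)⁻¹ * x⁻¹ ∈ K :=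
          ‹K.Normal›.conj_mem _ (Subgroup.inv_mem _ hzK) x
        have hconjp : IsPGroup r (Subgroup.zpowers (x * (z : G)⁻¹ * x⁻¹)) := by
          obtain ⟨n, hn⟩ := (IsPGroup.iff_orderOf.mp R.isPGroup') z
          apply isPGroup_zpowers_of_orderOf _ n
          have h1 : x * (z : G)⁻¹ * x⁻¹ = MulAut.conj x ((z : G)⁻¹) := by
            simp [MulAut.conj_apply]
          rw [h1, MulEquiv.orderOf_eq, orderOf_inv, Subgroup.orderOf_coe, hn]
        have hconjR : x * (z : G)⁻¹ * x⁻¹ ∈ (R : Subgroup G) := hstar _ hconjK hconjp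
        have hc2 : (z : G) * x * (z : G)⁻¹ * x⁻¹ ∈ (R : Subgroup G) := by
          have h1 : (z : G) * x * (z : G)⁻¹ * x⁻¹ = (z : G) * (x * (z : G)⁻¹ * x⁻¹) := by group
          rw [h1]
          exact Subgroup.mul_mem _ z.2 hconjR
        have hdisj := IsPGroup.disjoint_of_ne s r hsr (S : Subgroup G) (R : Subgroup G)
          S.isPGroup' R.isPGroup'
        have hc : (z : G) * x * (z : G)⁻¹ * x⁻¹ = 1 := by
          have := Subgroup.disjoint_def.mp hdisj hc1 hc2
          exact this
        calc (z : G) * x = ((z : G) * x * (z : G)⁻¹ * x⁻¹) * (x * (z : G)) := by group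
          _ = x * (z : G) := by rw [hc, one_mul]
    obtain ⟨S, hS⟩ := hex
    have h1 : (Subgroup.centralizer ({(z : G)} : Set G)).index ∣ (S : Subgroup G).index :=
      Subgroup.index_dvd_of_le hS
    exact S.not_dvd_index (hsdvd.trans h1)
  have hzZ : (z : G) ∈ Subgroup.center G := by
    rw [Subgroup.mem_center_iff]
    intro g
    have hg : g ∈ Subgroup.centralizer ({(z : G)} : Set G) := by rw [hcent]; trivial
    exact (Subgroup.mem_centralizer_iff.mp hg (z : G) rfl).symm
  rw [hZ, Subgroup.mem_bot] at hzZ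
  exact hz1' hzZ

theorem main : Cfsg.Agent.Lib.Helper16.SNStmt.KTriv.{u} := by
  intro hKN G _ _ hZ h17 hprimes hP17 h2 h3
  classical
  have f17 : Fact (Nat.Prime 17) := ⟨by norm_num⟩
  have f2 : Fact (Nat.Prime 2) := ⟨Nat.prime_two⟩
  have f3 : Fact (Nat.Prime 3) := ⟨Nat.prime_three⟩
  -- the kernel normalizes every Sylow subgroup
  have hN17 : ∀ S : Sylow 17 G,
      (act G).ker ≤ Subgroup.normalizer ((S : Subgroup G) : Set G) := by
    intro S k hk
    rw [MonoidHom.mem_ker] at hk
    have h1 : k • S = S := by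
      have := congrArg (fun σ : Equiv.Perm (Sylow 17 G) => σ S) hk
      simpa using this
    exact Sylow.smul_eq_iff_mem_normalizer.mp h1
  have hN2 : ∀ S : Sylow 2 G,
      (act G).ker ≤ Subgroup.normalizer ((S : Subgroup G) : Set G) := by
    intro S
    have h := hKN G (act G).range (act G).rangeRestrict (act G).rangeRestrict_surjective 2 h2 S
    rwa [MonoidHom.ker_rangeRestrict] at h
  have hN3 : ∀ S : Sylow 3 G,
      (act G).ker ≤ Subgroup.normalizer ((S : Subgroup G) : Set G) := by
    intro S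
    have h := hKN G (act G).range (act G).rangeRestrict (act G).rangeRestrict_surjective 3 h3 S
    rwa [MonoidHom.ker_rangeRestrict] at h
  have hall : ∀ (s : ℕ) [Fact s.Prime], ∀ S : Sylow s G,
      (act G).ker ≤ Subgroup.normalizer ((S : Subgroup G) : Set G) := by
    intro s hs S
    by_cases hsd : s ∣ Nat.card G
    · rcases hprimes s hs.out hsd with rfl | rfl | rfl
      · exact hN2 S
      · exact hN3 S
      · exact hN17 S
    · have hS : (S : Subgroup G) = ⊥ := by
        rw [← Subgroup.card_eq_one, S.card_eq_multiplicity,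
          Nat.factorization_eq_zero_of_not_dvd hsd, pow_zero]
      intro k _
      rw [hS, Subgroup.mem_normalizer_iff]
      intro x
      simp
  -- no prime divides the order of the kernel
  rw [← Subgroup.card_eq_one, Nat.eq_one_iff_not_exists_prime_dvd]
  intro s hs hsd
  have : Fact s.Prime := ⟨hs⟩
  exact not_dvd_card (act G).ker hZ hall s hsd

end Cfsg.Agent.Lib.Helper78.SNKTRIV
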